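import Cfsg.Agent.G2Even.Coll

/-!
The two classes of involutions of `G₂(q)`, `q` even.
-/

set_option autoImplicit false
set_option linter.unusedSimpArgs false
set_option linter.unusedSectionVars false
set_option linter.unreachableTactic false
set_option linter.unusedTactic false

namespace Cfsg.Agent.G2Even

open Cfsg.Lie Cfsg.Agent.ChevGrp
open scoped MatrixGroups

variable {F : Type*} [Field F] [CharP F 2] {G : Type*} [Group G] (S : Sys chevG2 F G)

theorem el_mul (a b c d e k a' b' c' d' e' k' : F) :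
    el S a b c d e k * el S a' b' c' d' e' k' =
      el S (a + a') (b + b') (a' * b + (c + c')) (a' ^ 2 * b + (d + d'))
        (a' ^ 3 * b + (a' ^ 2 * c + (a' * d + (e + e'))))
        ((c + c') * (a' ^ 2 * b) + (b' * (a' ^ 3 * b) + (a' ^ 3 * b ^ 2 +
          (b' * (a' ^ 2 * c) + (a' * c ^ 2 + (c' * d + (b' * (a' * d) + (b' * e + (k + k'))))))))) := by
  simp only [el, mul_assoc, swap76 S, swap76' S, swap78 S, swap78' S, swap79 S, swap79' S, swap610 S, swap610' S, swap89 S, swap89' S, swapT7_10 S, swapT7_10' S, swapT7_11 S, swapT7_11' S, swapT6_8 S, swapT6_8' S, swapT6_9 S, swapT6_9' S, swapT6_11 S, swapT6_11' S, swapT8_10 S, swapT8_10' S, swapT8_11 S, swapT8_11' S, swapT9_10 S, swapT9_10' S, swapT9_11 S, swapT9_11' S, swapT10_11 S, swapT10_11' S, merge7 S, merge7' S, merge6 S, merge6' S, merge8 S, merge8' S, merge9 S, merge9' S, merge10 S, merge10' S, merge11 S, merge11' S]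

theorem el_zero : el S 0 0 0 0 0 0 = (1 : G) := by
  simp [el, S.x_zero (show 7 < chevG2.nroots by decide), S.x_zero (show 6 < chevG2.nroots by decide),
    S.x_zero (show 8 < chevG2.nroots by decide), S.x_zero (show 9 < chevG2.nroots by decide),
    S.x_zero (show 10 < chevG2.nroots by decide), S.x_zero (show 11 < chevG2.nroots by decide)]

/-- Conjugacy inside the generated group. -/
def Cj (g h : G) : Prop := ∃ x ∈ S.Gbar, x * g = h * x

theorem Cj.trans {g h k : G} (h₁ : Cj S g h) (h₂ : Cj S h k) : Cj S g k := by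
  obtain ⟨x, hx, e₁⟩ := h₁
  obtain ⟨y, hy, e₂⟩ := h₂
  exact ⟨y * x, mul_mem hy hx, by rw [mul_assoc, e₁, ← mul_assoc, e₂, mul_assoc]⟩

theorem x_mem {r : ℕ} (hr : r < 12) (t : F) : S.x r t ∈ S.Gbar :=
  Subgroup.subset_closure ⟨r, hr, t, rfl⟩

theorem el_mem (a b c d e k : F) : el S a b c d e k ∈ S.Gbar :=
  mul_mem (x_mem S (by norm_num) a) (mul_mem (x_mem S (by norm_num) b) (mul_mem (x_mem S (by norm_num) c)
    (mul_mem (x_mem S (by norm_num) d) (mul_mem (x_mem S (by norm_num) e) (x_mem S (by norm_num) k)))))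

/-- The coefficient function of `el`. -/
def coord (a b c d e k : F) : ℕ → F := fun r =>
  if r = 7 then a else if r = 6 then b else if r = 8 then c else if r = 9 then d else if r = 10 then e else k

theorem el_eq_P (a b c d e k : F) : el S a b c d e k = S.P [7, 6, 8, 9, 10, 11] (coord a b c d e k) := by
  simp [el, Sys.P, coord]

theorem enum_pos : Enum (posSet chevG2) [7, 6, 8, 9, 10, 11] := by
  refine ⟨by decide, fun r => ⟨fun h => ?_, fun h => ?_⟩⟩
  · exact (show ∀ r ∈ [7, 6, 8, 9, 10, 11], chevG2.IsPosRoot r by decide +kernel) r h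
  · exact (show ∀ r < 12, chevG2.IsPosRoot r → r ∈ [7, 6, 8, 9, 10, 11] by decide +kernel) r h.1 h

variable {S} in
theorem el_inj {len : ℕ → ℕ} (hR : RootTable chevG2 len) {a b c d e k a' b' c' d' e' k' : F}
    (h : el S a b c d e k = el S a' b' c' d' e' k') :
    a = a' ∧ b = b' ∧ c = c' ∧ d = d' ∧ e = e' ∧ k = k' := by
  have key := S.coef_unique hR hR.posSet_closed enum_pos
    (t := coord a b c d e k) (t' := coord a' b' c' d' e' k') (by rw [← el_eq_P, ← el_eq_P, h])
  have hm : ∀ r ∈ [7, 6, 8, 9, 10, 11], coord a b c d e k r = coord a' b' c' d' e' k' r :=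
    fun r hr => key r ((enum_pos.2 r).1 hr)
  exact ⟨by simpa [coord] using hm 7 (by simp), by simpa [coord] using hm 6 (by simp),
    by simpa [coord] using hm 8 (by simp), by simpa [coord] using hm 9 (by simp),
    by simpa [coord] using hm 10 (by simp), by simpa [coord] using hm 11 (by simp)⟩

variable {S} in
theorem exists_el {len : ℕ → ℕ} (hR : RootTable chevG2 len) {g : G} (hg : g ∈ S.Ubar) :
    ∃ a b c d e k : F, g = el S a b c d e k := by
  obtain ⟨t, rfl⟩ := S.exists_coef hR hR.posSet_closed enum_pos hg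
  exact ⟨t 7, t 6, t 8, t 9, t 10, t 11, by simp [el, Sys.P]⟩

section Moves

variable [Fintype F]

theorem exists_sqrt (y : F) : ∃ t : F, t ^ 2 = y := by
  obtain ⟨t, ht⟩ := FiniteField.isSquare_of_char_two (ringChar.eq F 2) y
  exact ⟨t, by rw [ht, sq]⟩

theorem cj_el {a b c d e k a' b' c' d' e' k' : F} (p q r s u v : F)
    (h : el S p q r s u v * el S a b c d e k = el S a' b' c' d' e' k' * el S p q r s u v) :
    Cj S (el S a b c d e k) (el S a' b' c' d' e' k') :=
  ⟨el S p q r s u v, el_mem S p q r s u v, h⟩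

theorem move_long_a {a c d e k : F} (ha : a ≠ 0) (hd : d = a * c) :
    Cj S (el S a 0 c d e k) (el S a 0 0 0 0 0) := by
  obtain ⟨s, hs⟩ : ∃ s : F, s * a = c := ⟨c * a⁻¹, by rw [mul_assoc, inv_mul_cancel₀ ha, mul_one]⟩
  set E := e + a ^ 3 * s
  set K := c * a ^ 2 * s + a ^ 3 * s ^ 2 + k + s * E
  have h1 : Cj S (el S a 0 c d e k) (el S a 0 0 0 E K) := by
    refine cj_el S 0 s 0 0 0 0 ?_
    rw [el_mul, el_mul]
    congr 1 <;> simp
    · linear_combination hs + c * (CharTwo.two_eq_zero : (2 : F) = 0)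
    · linear_combination a * hs + hd + (a * c) * (CharTwo.two_eq_zero : (2 : F) = 0)
    · simp only [E]; ring
    · simp only [K]; linear_combination -(s * E) * (CharTwo.two_eq_zero : (2 : F) = 0)
  obtain ⟨t, ht⟩ := exists_sqrt (K * a⁻¹)
  refine h1.trans S (cj_el S 0 0 t ((E + a ^ 2 * t) * a⁻¹) 0 0 ?_)
  rw [el_mul, el_mul]
  congr 1 <;> simp
  · linear_combination (E + a ^ 2 * t) * mul_inv_cancel₀ ha + (E + a ^ 2 * t) * (CharTwo.two_eq_zero : (2 : F) = 0)
  · linear_combination a * ht + K * mul_inv_cancel₀ ha + K * (CharTwo.two_eq_zero : (2 : F) = 0)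

theorem move_short_c {c e k : F} (hc : c ≠ 0) : Cj S (el S 0 0 c 0 e k) (el S 0 0 c 0 0 0) := by
  obtain ⟨t, ht⟩ := exists_sqrt (e * c⁻¹)
  refine cj_el S t 0 0 ((k + t * c ^ 2) * c⁻¹) 0 0 ?_
  rw [el_mul, el_mul]
  congr 1 <;> simp
  · rw [ht, mul_assoc, inv_mul_cancel₀ hc, mul_one]
  · linear_combination (k + t * c ^ 2) * mul_inv_cancel₀ hc + k * (CharTwo.two_eq_zero : (2 : F) = 0)

theorem move_short_d {d e k : F} (hd : d ≠ 0) : Cj S (el S 0 0 0 d e k) (el S 0 0 0 d 0 0) := by
  refine cj_el S (e * d⁻¹) 0 (k * d⁻¹) 0 0 0 ?_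
  rw [el_mul, el_mul]
  congr 1 <;> simp
  · rw [mul_assoc, inv_mul_cancel₀ hd, mul_one]
  · rw [mul_assoc, inv_mul_cancel₀ hd, mul_one]

theorem move_long_e {e k : F} (he : e ≠ 0) : Cj S (el S 0 0 0 0 e k) (el S 0 0 0 0 e 0) := by
  refine cj_el S 0 (k * e⁻¹) 0 0 0 0 ?_
  rw [el_mul, el_mul]
  congr 1 <;> simp
  rw [mul_assoc, inv_mul_cancel₀ he, mul_one]

theorem move_b {b c d e k : F} (hb : b ≠ 0) (h : c * d + b * e = 0) :
    ∃ D : F, Cj S (el S 0 b c d e k) (el S 0 b 0 D 0 0) := by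
  obtain ⟨t, rfl⟩ : ∃ t : F, c = t * b := ⟨c * b⁻¹, by rw [mul_assoc, inv_mul_cancel₀ hb, mul_one]⟩
  refine ⟨d + t ^ 2 * b, Cj.trans S (h := el S 0 b 0 (d + t ^ 2 * b) 0 (k + t ^ 3 * b ^ 2))
    (cj_el S t 0 0 0 0 0 ?_) (cj_el S 0 0 0 0 ((k + t ^ 3 * b ^ 2) * b⁻¹) 0 ?_)⟩
  · have he : e = t * d := by
      apply mul_left_cancel₀ hb
      linear_combination h - (b * t * d) * (CharTwo.two_eq_zero : (2 : F) = 0)
    subst he
    rw [el_mul, el_mul]
    congr 1 <;> simp
    · linear_combination -(t ^ 2 * b) * (CharTwo.two_eq_zero : (2 : F) = 0)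
    · linear_combination -(t ^ 3 * b) * (CharTwo.two_eq_zero : (2 : F) = 0)
    · linear_combination -(t ^ 3 * b ^ 2) * (CharTwo.two_eq_zero : (2 : F) = 0)
  · rw [el_mul, el_mul]
    congr 1 <;> simp
    linear_combination (k + t ^ 3 * b ^ 2) * mul_inv_cancel₀ hb + (k + t ^ 3 * b ^ 2) * (CharTwo.two_eq_zero : (2 : F) = 0)

variable {len : ℕ → ℕ} (hS : Rules chevG2 F) (hR : RootTable chevG2 len)

include hS hR

theorem nI_move (i : Fin chevG2.rank) {r : ℕ} (hr : r < 12) (t : F) :
    S.nI i * S.x r t * (S.nI i)⁻¹ = S.x (chevG2.reflectRoot i r) t := by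
  have e := S.conj_all hS hR i (S.nEl_mem_rankOne i 1) (Or.inr rfl) _
    (fun s hs u => S.θ_nI_conj hS hR i hs u) r hr t
  rw [act_singleton] at e
  have h1 : (hS.eta i r : F) = 1 := by
    rcases hS.eta_sq i hr with e | e <;> simp [e, CharTwo.neg_eq]
  rw [h1, one_mul] at e
  exact e

theorem nI_mem (i : Fin chevG2.rank) : S.nI i ∈ S.Gbar := by
  rw [S.Gbar_eq hR hS]
  exact Subgroup.mem_sup_right (S.nI_mem_Nbar i)

theorem cj_reflect (i : ℕ) (hi : i < chevG2.rank) {r r' : ℕ} (hr : r < 12)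
    (h : chevG2.reflectRoot i r = r') (t : F) : Cj S (S.x r t) (S.x r' t) :=
  ⟨S.nI ⟨i, hi⟩, nI_mem S hS hR _, by rw [← h, ← nI_move S hS hR ⟨i, hi⟩ hr t]; simp [mul_assoc]⟩

theorem cj_scale (i : ℕ) (hi : i < chevG2.rank) {r : ℕ} (hr : r < 12)
    (h : chevG2.cartan i r = 1) {t : F} (ht : t ≠ 0) : Cj S (S.x r t) (S.x r 1) := by
  refine ⟨S.hEl (chevG2.simple i) t⁻¹, ?_, ?_⟩
  · rw [S.Gbar_eq hR hS]
    exact Subgroup.mem_sup_left (S.Hbar_le_Bbar (S.hEl_simple_mem ⟨i, hi⟩ (inv_ne_zero ht)))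
  · have e := S.conjP_hI hS hR ⟨i, hi⟩ (inv_ne_zero ht) r hr t
    rw [h, zpow_one, inv_mul_cancel₀ ht] at e
    rw [← e]
    simp [mul_assoc]

/-- Every involution of `U` is conjugate to a long or a short root element. -/
theorem cj_root_of_el {a b c d e k : F} (hsq : el S a b c d e k * el S a b c d e k = 1)
    (hne : el S a b c d e k ≠ 1) :
    Cj S (el S a b c d e k) (S.x 11 1) ∨ Cj S (el S a b c d e k) (S.x 9 1) := by
  rw [el_mul, ← el_zero S] at hsq
  obtain ⟨-, -, h8, h9, h10, h11⟩ := el_inj hR hsq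
  simp only [CharTwo.add_self_eq_zero, add_zero, mul_zero, zero_mul, zero_add] at h8 h9 h10 h11
  have h7 : ∀ r, r < chevG2.nroots → S.x r 0 = 1 := fun r hr => S.x_zero hr
  have z7 := h7 7 (by decide)
  have z6 := h7 6 (by decide)
  have z8 := h7 8 (by decide)
  have z9 := h7 9 (by decide)
  have z10 := h7 10 (by decide)
  have z11 := h7 11 (by decide)
  have short : ∀ {D : F}, D ≠ 0 → Cj S (S.x 9 D) (S.x 9 1) :=
    fun {D} hD => cj_scale S hS hR 0 (by decide) (by norm_num) (by decide +kernel) hD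
  have shortc : ∀ {C E K : F}, C ≠ 0 → Cj S (el S 0 0 C 0 E K) (S.x 9 1) := by
    intro C E K hC
    refine (move_short_c S hC).trans S ?_
    rw [el, z7, z6, z9, z10, z11]
    simp only [one_mul, mul_one]
    exact (cj_reflect S hS hR 0 (by decide) (by norm_num) (by decide +kernel) C).trans S (short hC)
  have long : ∀ {K : F}, K ≠ 0 → Cj S (S.x 11 K) (S.x 11 1) :=
    fun {K} hK => cj_scale S hS hR 1 (by decide) (by norm_num) (by decide +kernel) hK
  have longe : ∀ {E : F}, E ≠ 0 → Cj S (S.x 10 E) (S.x 11 1) := fun {E} hE =>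
    (cj_reflect S hS hR 1 (by decide) (by norm_num) (by decide +kernel) E).trans S (long hE)
  by_cases ha : a = 0
  · subst ha
    have h : c * d + b * e = 0 := by linear_combination h11
    by_cases hb : b = 0
    · subst hb
      by_cases hc : c = 0
      · subst hc
        by_cases hd : d = 0
        · subst hd
          left
          by_cases he : e = 0
          · subst he
            have hk : k ≠ 0 := by rintro rfl; exact hne (el_zero S)
            rw [el, z7, z6, z8, z9, z10]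
            simp only [one_mul]
            exact long hk
          · refine (move_long_e S he).trans S ?_
            rw [el, z7, z6, z8, z9, z11]
            simp only [one_mul, mul_one]
            exact longe he
        · refine Or.inr ((move_short_d S hd).trans S ?_)
          rw [el, z7, z6, z8, z10, z11]
          simp only [one_mul, mul_one]
          exact short hd
      · obtain rfl : d = 0 := by
          simp only [zero_mul, add_zero] at h
          exact (mul_eq_zero.1 h).resolve_left hc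
        exact Or.inr (shortc hc)
    · obtain ⟨D, hD⟩ := move_b S hb h
      have h2 : Cj S (el S 0 b 0 D 0 0) (el S 0 0 D 0 b 0) := by
        refine ⟨S.nI ⟨0, by decide⟩, nI_mem S hS hR _, ?_⟩
        have e1 := nI_move S hS hR ⟨0, by decide⟩ (show 6 < 12 by norm_num) b
        have e2 := nI_move S hS hR ⟨0, by decide⟩ (show 9 < 12 by norm_num) D
        rw [show chevG2.reflectRoot ((⟨0, by decide⟩ : Fin chevG2.rank) : ℕ) 6 = 10 by decide +kernel] at e1
        rw [show chevG2.reflectRoot ((⟨0, by decide⟩ : Fin chevG2.rank) : ℕ) 9 = 8 by decide +kernel] at e2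
        simp only [el, z7, z6, z8, z9, z10, z11, one_mul, mul_one]
        rw [← mul_inv_eq_iff_eq_mul, show S.x 8 D * S.x 10 b = S.x 10 b * S.x 8 D from
          (swap_triv S (by decide) D b).symm, ← e1, ← e2]
        simp [mul_assoc]
      by_cases hD0 : D = 0
      · subst hD0
        refine Or.inl (hD.trans S (h2.trans S ?_))
        rw [el, z7, z6, z8, z9, z11]
        simp only [one_mul, mul_one]
        exact longe hb
      · exact Or.inr (hD.trans S (h2.trans S (shortc hD0)))
  · obtain rfl : b = 0 := (mul_eq_zero.1 h8).resolve_left ha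
    have hd : d = a * c := by
      apply mul_left_cancel₀ ha
      linear_combination h10 - (a ^ 2 * c) * (CharTwo.two_eq_zero : (2 : F) = 0)
    refine Or.inr ((move_long_a S ha hd).trans S ?_)
    rw [el, z6, z8, z9, z10, z11]
    simp only [one_mul, mul_one]
    exact ((cj_reflect S hS hR 1 (by decide) (r' := 8) (by norm_num) (by decide +kernel) a).trans S
      (cj_reflect S hS hR 0 (by decide) (r' := 9) (by norm_num) (by decide +kernel) a)).trans S (short ha)

/-- Long and short root elements are not conjugate. -/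
theorem not_cj_long_short : ¬ Cj S (S.x 11 1) (S.x 9 1) := by
  rintro ⟨g, hg, e⟩
  obtain ⟨b, hb, w, -, v, hv, rfl⟩ := S.mem_NF hS hR hg
  have hvU : v ∈ S.Ubar := S.US_mono (fun r h => h.1) hv
  have z : ∀ r, r < chevG2.nroots → S.x r 0 = 1 := fun r hr => S.x_zero hr
  have l11 : S.x 11 (1 : F) = el S 0 0 0 0 0 1 := by
    simp [el, z 7 (by decide), z 6 (by decide), z 8 (by decide), z 9 (by decide), z 10 (by decide)]
  have l9 : S.x 9 (1 : F) = el S 0 0 0 1 0 0 := by
    simp [el, z 7 (by decide), z 6 (by decide), z 8 (by decide), z 11 (by decide), z 10 (by decide)]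
  have hcen : v * S.x 11 1 = S.x 11 1 * v := by
    obtain ⟨a, b, c, d, e, k, rfl⟩ := exists_el hR hvU
    rw [l11, el_mul, el_mul]
    simp [add_comm]
  obtain ⟨s, hs, hsc⟩ := S.conjP_nW hS hR w
  have hn := hsc 11 (by decide) 1
  rw [mul_one] at hn
  set r := act chevG2 w 11 with hr
  have hrl : r < 12 := hR.act_lt w (by decide)
  have horb : r ∈ [0, 1, 5, 6, 10, 11] := by
    have ho := Known.ChevCent.orbit_closed_mem (D := chevG2) [0, 1, 5, 6, 10, 11] (by decide +kernel) hR w
      (r := 11) (by decide +kernel)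
    rw [← hr] at ho
    simpa using ho
  have key : b * S.x r (s 11) = S.x 9 1 * b := by
    rw [← hn]
    calc b * (S.nW w * S.x 11 1 * (S.nW w)⁻¹) = b * S.nW w * (v * S.x 11 1) * (b * S.nW w * v)⁻¹ * b := by
          rw [hcen]; simp [mul_assoc]
      _ = (b * S.nW w * v * S.x 11 1) * (b * S.nW w * v)⁻¹ * b := by simp [mul_assoc]
      _ = S.x 9 1 * b := by rw [e, mul_inv_cancel_right]
  obtain ⟨u, hu, h, hh, rfl⟩ := (S.mem_Bbar hS hR).1 hb
  obtain ⟨m, -, hm⟩ := S.conjP_Hbar hS hR hh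
  have hm' := hm r hrl (s 11)
  rw [act_nil] at hm'
  have key2 : u * S.x r (m r * s 11) = S.x 9 1 * u := by
    rw [← hm']
    calc u * (h * S.x r (s 11) * h⁻¹) = (u * h * S.x r (s 11)) * h⁻¹ := by simp [mul_assoc]
      _ = S.x 9 1 * (u * h) * h⁻¹ := by rw [key]
      _ = _ := by simp [mul_assoc]
  by_cases hpos : chevG2.IsPosRoot r
  · obtain ⟨a, b, c, d, e, k, rfl⟩ := exists_el hR hu
    have hr' : r = 6 ∨ r = 10 ∨ r = 11 := by
      have : r ∈ [6, 10, 11] :=
        (show ∀ r ∈ [0, 1, 5, 6, 10, 11], chevG2.IsPosRoot r → r ∈ [6, 10, 11] by decide +kernel) r horb hpos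
      simpa using this
    rcases hr' with e' | e' | e'
    · rw [e', show S.x 6 (m 6 * s 11) = el S 0 (m 6 * s 11) 0 0 0 0 by
        simp [el, z 7 (by decide), z 9 (by decide), z 8 (by decide), z 11 (by decide), z 10 (by decide)],
        l9, el_mul, el_mul] at key2
      simpa using (el_inj hR key2).2.2.2.1
    · rw [e', show S.x 10 (m 10 * s 11) = el S 0 0 0 0 (m 10 * s 11) 0 by
        simp [el, z 7 (by decide), z 9 (by decide), z 8 (by decide), z 11 (by decide), z 6 (by decide)],
        l9, el_mul, el_mul] at key2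
      simpa using (el_inj hR key2).2.2.2.1
    · rw [e', show S.x 11 (m 11 * s 11) = el S 0 0 0 0 0 (m 11 * s 11) by
        simp [el, z 7 (by decide), z 9 (by decide), z 8 (by decide), z 10 (by decide), z 6 (by decide)],
        l9, el_mul, el_mul] at key2
      simpa using (el_inj hR key2).2.2.2.1
  · have hneg := hR.neg_of_not_pos hrl hpos
    have h9 : S.x 9 1 ∈ S.Ubar := S.x_mem_US (T := posSet chevG2)
      (show chevG2.IsPosRoot 9 by decide +kernel) 1
    have hU : S.x r (m r * s 11) ∈ S.Ubar := by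
      have : S.x r (m r * s 11) = u⁻¹ * (S.x 9 1 * u) := by rw [← key2, inv_mul_cancel_left]
      rw [this]
      exact mul_mem (inv_mem hu) (mul_mem h9 hu)
    have hbot : S.x r (m r * s 11) ∈ S.Vbar ⊓ S.Bbar :=
      ⟨S.x_mem_US (T := negSet chevG2) hneg _, S.Ubar_le_Bbar hU⟩
    rw [S.Vbar_inf_Bbar hS hR, Subgroup.mem_bot] at hbot
    rw [hbot, mul_one, right_eq_mul, l9, ← el_zero S] at key2
    exact one_ne_zero (el_inj hR key2).2.2.2.1

end Moves

theorem Hbar_pow_card {D : ChevalleyDatum} {F : Type*} [Field F] [Finite F] {len : ℕ → ℕ} (hS : Rules D F)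
    (hR : RootTable D len) {h : GL D.Idx F} (hh : h ∈ (glSys hS).Hbar) : h ^ (Nat.card F - 1) = 1 := by
  rw [← (glSys hS).tau_range hS hR (glSys_HMul hS hR)] at hh
  obtain ⟨c, rfl⟩ := hh
  rw [← map_pow]
  convert map_one ((glSys hS).tau hS hR (glSys_HMul hS hR))
  funext i
  rw [Pi.pow_apply, ← Nat.card_units]
  exact pow_card_eq_one'

end Cfsg.Agent.G2Even
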