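import Cfsg.Agent.Known.ChevCentInst
import Cfsg.Agent.ChevGrp.UnipCount

/-!
The unipotent radical of a Borel subgroup of `G₂(q)`, `q` even: collection formulas.
-/

set_option autoImplicit false

namespace Cfsg.Agent.G2Even

open Cfsg.Lie Cfsg.Agent.ChevGrp

variable {F : Type*} [Field F] [CharP F 2] {G : Type*} [Group G] (S : Sys chevG2 F G)

theorem x_mul (r : ℕ) (hr : r < 12) (t u : F) : S.x r t * S.x r u = S.x r (t + u) :=
  S.x_add r hr t u

theorem x_mul_assoc (r : ℕ) (hr : r < 12) (t u : F) (g : G) :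
    S.x r t * (S.x r u * g) = S.x r (t + u) * g := by
  rw [← mul_assoc, x_mul S r hr]

theorem swap_aux {r s : ℕ} (hr : r < 12) (hs : s < 12) (hne : s ≠ r) (hneg : s ≠ chevG2.neg r)
    {L : List (ℕ × ℤ × ℕ × ℕ)} (hL : chevG2.commTerms r s = L) (t u : F) :
    S.x s u * S.x r t = S.x r t * S.x s u *
      (L.map fun c => S.x c.1 (((c.2.1 : ℤ) : F) * t ^ c.2.2.1 * u ^ c.2.2.2)).prod := by
  rw [S.comm r hr s hs hne hneg t u, ChevalleyDatum.commWord, hL, List.map_map]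
  simp [Function.comp_def, CharTwo.neg_eq]

theorem swap76 (a b : F) : S.x 6 b * S.x 7 a = S.x 7 a * (S.x 6 b *
    (S.x 8 (a * b) * (S.x 9 (a ^ 2 * b) * (S.x 10 (a ^ 3 * b) * S.x 11 (a ^ 3 * b ^ 2))))) := by
  rw [swap_aux S (by norm_num) (by norm_num) (by norm_num) (by decide +kernel)
    (L := [(8, -1, 1, 1), (9, 1, 2, 1), (10, 1, 3, 1), (11, 1, 3, 2)]) (by decide +kernel) a b]
  simp [CharTwo.neg_eq, mul_assoc]

theorem swap78 (a c : F) : S.x 8 c * S.x 7 a = S.x 7 a * (S.x 8 c *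
    (S.x 10 (a ^ 2 * c) * S.x 11 (a * c ^ 2))) := by
  rw [swap_aux S (by norm_num) (by norm_num) (by norm_num) (by decide +kernel)
    (L := [(9, -2, 1, 1), (10, -3, 2, 1), (11, 3, 1, 2)]) (by decide +kernel) a c]
  simp [CharTwo.neg_eq, CharTwo.two_eq_zero, S.x_zero (show 9 < chevG2.nroots by decide),
    show (3 : F) = 1 by linear_combination (CharTwo.two_eq_zero : (2 : F) = 0), mul_assoc]

theorem swap79 (a d : F) : S.x 9 d * S.x 7 a = S.x 7 a * (S.x 9 d * S.x 10 (a * d)) := by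
  rw [swap_aux S (by norm_num) (by norm_num) (by norm_num) (by decide +kernel)
    (L := [(10, 3, 1, 1)]) (by decide +kernel) a d]
  simp [show (3 : F) = 1 by linear_combination (CharTwo.two_eq_zero : (2 : F) = 0), mul_assoc]

theorem swap610 (b e : F) : S.x 10 e * S.x 6 b = S.x 6 b * (S.x 10 e * S.x 11 (b * e)) := by
  rw [swap_aux S (by norm_num) (by norm_num) (by norm_num) (by decide +kernel)
    (L := [(11, 1, 1, 1)]) (by decide +kernel) b e]
  simp [mul_assoc]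

theorem swap89 (c d : F) : S.x 9 d * S.x 8 c = S.x 8 c * (S.x 9 d * S.x 11 (c * d)) := by
  rw [swap_aux S (by norm_num) (by norm_num) (by norm_num) (by decide +kernel)
    (L := [(11, 3, 1, 1)]) (by decide +kernel) c d]
  simp [show (3 : F) = 1 by linear_combination (CharTwo.two_eq_zero : (2 : F) = 0), mul_assoc]

theorem swap_triv {r s : ℕ}
    (h : (r, s) ∈ [(7, 10), (7, 11), (6, 8), (6, 9), (6, 11), (8, 10), (8, 11), (9, 10), (9, 11), (10, 11)])
    (t u : F) : S.x s u * S.x r t = S.x r t * S.x s u := by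
  have : r < 12 ∧ s < 12 ∧ s ≠ r ∧ s ≠ chevG2.neg r ∧ chevG2.commTerms r s = [] := by
    revert h
    have key : ∀ p ∈ [(7, 10), (7, 11), (6, 8), (6, 9), (6, 11), (8, 10), (8, 11), (9, 10), (9, 11), (10, 11)],
        p.1 < 12 ∧ p.2 < 12 ∧ p.2 ≠ p.1 ∧ p.2 ≠ chevG2.neg p.1 ∧ chevG2.commTerms p.1 p.2 = [] := by
      decide +kernel
    exact key (r, s)
  obtain ⟨h1, h2, h3, h4, h5⟩ := this
  simp [swap_aux S h1 h2 h3 h4 h5 t u]

/-- The element of `U` with the given coordinates. -/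
def el (a b c d e k : F) : G :=
  S.x 7 a * (S.x 6 b * (S.x 8 c * (S.x 9 d * (S.x 10 e * S.x 11 k))))

theorem swapT7_10 (t u : F) : S.x 10 u * S.x 7 t = S.x 7 t * S.x 10 u :=
  swap_triv S (by decide) t u

theorem swapT7_11 (t u : F) : S.x 11 u * S.x 7 t = S.x 7 t * S.x 11 u :=
  swap_triv S (by decide) t u

theorem swapT6_8 (t u : F) : S.x 8 u * S.x 6 t = S.x 6 t * S.x 8 u :=
  swap_triv S (by decide) t u

theorem swapT6_9 (t u : F) : S.x 9 u * S.x 6 t = S.x 6 t * S.x 9 u :=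
  swap_triv S (by decide) t u

theorem swapT6_11 (t u : F) : S.x 11 u * S.x 6 t = S.x 6 t * S.x 11 u :=
  swap_triv S (by decide) t u

theorem swapT8_10 (t u : F) : S.x 10 u * S.x 8 t = S.x 8 t * S.x 10 u :=
  swap_triv S (by decide) t u

theorem swapT8_11 (t u : F) : S.x 11 u * S.x 8 t = S.x 8 t * S.x 11 u :=
  swap_triv S (by decide) t u

theorem swapT9_10 (t u : F) : S.x 10 u * S.x 9 t = S.x 9 t * S.x 10 u :=
  swap_triv S (by decide) t u

theorem swapT9_11 (t u : F) : S.x 11 u * S.x 9 t = S.x 9 t * S.x 11 u :=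
  swap_triv S (by decide) t u

theorem swapT10_11 (t u : F) : S.x 11 u * S.x 10 t = S.x 10 t * S.x 11 u :=
  swap_triv S (by decide) t u

theorem assoc_swap {x y w : G} (h : y * x = w) (g : G) : y * (x * g) = w * g := by
  rw [← mul_assoc, h]

theorem swap76' (t u : F) (g : G) : S.x 6 u * (S.x 7 t * g) = S.x 7 t * (S.x 6 u * (S.x 8 (t * u) * (S.x 9 (t ^ 2 * u) * (S.x 10 (t ^ 3 * u) * (S.x 11 (t ^ 3 * u ^ 2) * g))))) := by
  rw [assoc_swap (swap76 S t u) g]; simp only [mul_assoc]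

theorem swap78' (t u : F) (g : G) : S.x 8 u * (S.x 7 t * g) = S.x 7 t * (S.x 8 u * (S.x 10 (t ^ 2 * u) * (S.x 11 (t * u ^ 2) * g))) := by
  rw [assoc_swap (swap78 S t u) g]; simp only [mul_assoc]

theorem swap79' (t u : F) (g : G) : S.x 9 u * (S.x 7 t * g) = S.x 7 t * (S.x 9 u * (S.x 10 (t * u) * g)) := by
  rw [assoc_swap (swap79 S t u) g]; simp only [mul_assoc]

theorem swap610' (t u : F) (g : G) : S.x 10 u * (S.x 6 t * g) = S.x 6 t * (S.x 10 u * (S.x 11 (t * u) * g)) := by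
  rw [assoc_swap (swap610 S t u) g]; simp only [mul_assoc]

theorem swap89' (t u : F) (g : G) : S.x 9 u * (S.x 8 t * g) = S.x 8 t * (S.x 9 u * (S.x 11 (t * u) * g)) := by
  rw [assoc_swap (swap89 S t u) g]; simp only [mul_assoc]

theorem swapT7_10' (t u : F) (g : G) : S.x 10 u * (S.x 7 t * g) = S.x 7 t * (S.x 10 u * g) := by
  rw [assoc_swap (swapT7_10 S t u) g]; simp only [mul_assoc]

theorem swapT7_11' (t u : F) (g : G) : S.x 11 u * (S.x 7 t * g) = S.x 7 t * (S.x 11 u * g) := by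
  rw [assoc_swap (swapT7_11 S t u) g]; simp only [mul_assoc]

theorem swapT6_8' (t u : F) (g : G) : S.x 8 u * (S.x 6 t * g) = S.x 6 t * (S.x 8 u * g) := by
  rw [assoc_swap (swapT6_8 S t u) g]; simp only [mul_assoc]

theorem swapT6_9' (t u : F) (g : G) : S.x 9 u * (S.x 6 t * g) = S.x 6 t * (S.x 9 u * g) := by
  rw [assoc_swap (swapT6_9 S t u) g]; simp only [mul_assoc]

theorem swapT6_11' (t u : F) (g : G) : S.x 11 u * (S.x 6 t * g) = S.x 6 t * (S.x 11 u * g) := by
  rw [assoc_swap (swapT6_11 S t u) g]; simp only [mul_assoc]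

theorem swapT8_10' (t u : F) (g : G) : S.x 10 u * (S.x 8 t * g) = S.x 8 t * (S.x 10 u * g) := by
  rw [assoc_swap (swapT8_10 S t u) g]; simp only [mul_assoc]

theorem swapT8_11' (t u : F) (g : G) : S.x 11 u * (S.x 8 t * g) = S.x 8 t * (S.x 11 u * g) := by
  rw [assoc_swap (swapT8_11 S t u) g]; simp only [mul_assoc]

theorem swapT9_10' (t u : F) (g : G) : S.x 10 u * (S.x 9 t * g) = S.x 9 t * (S.x 10 u * g) := by
  rw [assoc_swap (swapT9_10 S t u) g]; simp only [mul_assoc]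

theorem swapT9_11' (t u : F) (g : G) : S.x 11 u * (S.x 9 t * g) = S.x 9 t * (S.x 11 u * g) := by
  rw [assoc_swap (swapT9_11 S t u) g]; simp only [mul_assoc]

theorem swapT10_11' (t u : F) (g : G) : S.x 11 u * (S.x 10 t * g) = S.x 10 t * (S.x 11 u * g) := by
  rw [assoc_swap (swapT10_11 S t u) g]; simp only [mul_assoc]

theorem merge7 (t u : F) : S.x 7 t * S.x 7 u = S.x 7 (t + u) :=
  x_mul S 7 (by norm_num) t u

theorem merge7' (t u : F) (g : G) : S.x 7 t * (S.x 7 u * g) = S.x 7 (t + u) * g :=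
  x_mul_assoc S 7 (by norm_num) t u g

theorem merge6 (t u : F) : S.x 6 t * S.x 6 u = S.x 6 (t + u) :=
  x_mul S 6 (by norm_num) t u

theorem merge6' (t u : F) (g : G) : S.x 6 t * (S.x 6 u * g) = S.x 6 (t + u) * g :=
  x_mul_assoc S 6 (by norm_num) t u g

theorem merge8 (t u : F) : S.x 8 t * S.x 8 u = S.x 8 (t + u) :=
  x_mul S 8 (by norm_num) t u

theorem merge8' (t u : F) (g : G) : S.x 8 t * (S.x 8 u * g) = S.x 8 (t + u) * g :=
  x_mul_assoc S 8 (by norm_num) t u g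

theorem merge9 (t u : F) : S.x 9 t * S.x 9 u = S.x 9 (t + u) :=
  x_mul S 9 (by norm_num) t u

theorem merge9' (t u : F) (g : G) : S.x 9 t * (S.x 9 u * g) = S.x 9 (t + u) * g :=
  x_mul_assoc S 9 (by norm_num) t u g

theorem merge10 (t u : F) : S.x 10 t * S.x 10 u = S.x 10 (t + u) :=
  x_mul S 10 (by norm_num) t u

theorem merge10' (t u : F) (g : G) : S.x 10 t * (S.x 10 u * g) = S.x 10 (t + u) * g :=
  x_mul_assoc S 10 (by norm_num) t u g

theorem merge11 (t u : F) : S.x 11 t * S.x 11 u = S.x 11 (t + u) :=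
  x_mul S 11 (by norm_num) t u

theorem merge11' (t u : F) (g : G) : S.x 11 t * (S.x 11 u * g) = S.x 11 (t + u) * g :=
  x_mul_assoc S 11 (by norm_num) t u g

end Cfsg.Agent.G2Even
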